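import Mathlib

/-!
# `Sp₄`: block elements and their relations
-/

set_option autoImplicit false

namespace Cfsg.Agent.Lib.Helper37.S4

open Matrix

/-- product of two conjugates -/
def P2 {G : Type*} [Group G] (x g : G) : Prop := ∃ u v : G, g = u * x * u⁻¹ * (v * x * v⁻¹)

theorem P2.conj {G : Type*} [Group G] {x g : G} (h : P2 x g) (c : G) : P2 x (c * g * c⁻¹) := by
  obtain ⟨u, v, rfl⟩ := h
  exact ⟨c * u, c * v, by group⟩

theorem P2.of_conj {G : Type*} [Group G] {x g : G} (c : G) (h : P2 x (c * g * c⁻¹)) : P2 x g := by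
  have := h.conj c⁻¹
  simpa [mul_assoc] using this

theorem P2.of_isConj {G : Type*} [Group G] {x y1 y2 : G} (h1 : IsConj x y1) (h2 : IsConj x y2) :
    P2 x (y1 * y2) := by
  obtain ⟨u, hu⟩ := isConj_iff.1 h1
  obtain ⟨v, hv⟩ := isConj_iff.1 h2
  exact ⟨u, v, by rw [hu, hv]⟩

theorem isConj_of_mul_eq {G : Type*} [Group G] {x y c : G} (h : c * x = y * c) : IsConj x y :=
  isConj_iff.2 ⟨c, by rw [h, mul_inv_cancel_right]⟩

variable {F : Type*} [Field F]

/-- `2 × 2` matrices -/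
abbrev M2 (F : Type*) := Matrix (Fin 2) (Fin 2) F

/-- `Sp₄` -/
abbrev Sp4 (F : Type*) [Field F] := Matrix.symplecticGroup (Fin 2) F

/-- lower unipotent elements of the Siegel parabolic -/
def low (C : M2 F) (hC : Cᵀ = C) : Sp4 F :=
  ⟨fromBlocks 1 0 C 1, by rw [SymplecticGroup.fromBlocks_mem_iff]; simp [hC]⟩

/-- upper unipotent elements of the Siegel parabolic -/
def upp (B : M2 F) (hB : Bᵀ = B) : Sp4 F :=
  ⟨fromBlocks 1 B 0 1, by rw [SymplecticGroup.fromBlocks_mem_iff]; simp [hB]⟩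

/-- Levi elements -/
def lev (Q R : M2 F) (h : Qᵀ * R = 1) : Sp4 F :=
  ⟨fromBlocks Q 0 0 R, by rw [SymplecticGroup.fromBlocks_mem_iff]; simp [h]⟩

theorem pair_1 {Q R : M2 F} (h : Qᵀ * R = 1) : Rᵀ * Q = 1 := by
  have := congrArg Matrix.transpose h
  simpa using this

theorem pair_2 {Q R : M2 F} (h : Qᵀ * R = 1) : Q * Rᵀ = 1 :=
  _root_.mul_eq_one_comm.1 (pair_1 h)

theorem pair_3 {Q R : M2 F} (h : Qᵀ * R = 1) : R * Qᵀ = 1 :=
  _root_.mul_eq_one_comm.1 h

theorem pair_unique {Q R R' : M2 F} (h : Qᵀ * R = 1) (h' : Qᵀ * R' = 1) : R = R' :=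
  left_inv_eq_right_inv (pair_3 h) h'

theorem lev_congr {Q Q' R R' : M2 F} (h : Qᵀ * R = 1) (h' : Q'ᵀ * R' = 1) (e : Q = Q') :
    lev Q R h = lev Q' R' h' := by
  subst e
  have := pair_unique h h'
  subst this
  rfl

theorem pair_mul {Q R Q' R' : M2 F} (h : Qᵀ * R = 1) (h' : Q'ᵀ * R' = 1) :
    (Q * Q')ᵀ * (R * R') = 1 := by
  rw [Matrix.transpose_mul]
  calc Q'ᵀ * Qᵀ * (R * R') = Q'ᵀ * (Qᵀ * R) * R' := by simp only [Matrix.mul_assoc]
    _ = 1 := by rw [h, Matrix.mul_one, h']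

theorem lev_mul {Q R Q' R' : M2 F} (h : Qᵀ * R = 1) (h' : Q'ᵀ * R' = 1) :
    lev Q R h * lev Q' R' h' = lev (Q * Q') (R * R') (pair_mul h h') := by
  apply Subtype.ext
  simp [lev, fromBlocks_multiply]

theorem low_mul {C C' : M2 F} (h : Cᵀ = C) (h' : C'ᵀ = C') :
    low C h * low C' h' = low (C + C') (by rw [Matrix.transpose_add, h, h']) := by
  apply Subtype.ext
  simp [low, fromBlocks_multiply, add_comm]

theorem upp_mul {C C' : M2 F} (h : Cᵀ = C) (h' : C'ᵀ = C') :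
    upp C h * upp C' h' = upp (C + C') (by rw [Matrix.transpose_add, h, h']) := by
  apply Subtype.ext
  simp [upp, fromBlocks_multiply, add_comm]

theorem sym_conj {C : M2 F} (h : Cᵀ = C) (Q : M2 F) : (Qᵀ * C * Q)ᵀ = Qᵀ * C * Q := by
  simp [Matrix.transpose_mul, h, Matrix.mul_assoc]

theorem low_lev {C Q R : M2 F} (hC : Cᵀ = C) (h : Qᵀ * R = 1) :
    low C hC * lev Q R h = lev Q R h * low (Qᵀ * C * Q) (sym_conj hC Q) := by
  apply Subtype.ext
  simp only [low, lev, Submonoid.coe_mul, fromBlocks_multiply]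
  congr 1 <;> simp
  rw [← Matrix.mul_assoc, ← Matrix.mul_assoc, pair_3 h, Matrix.one_mul]

theorem upp_inv {B : M2 F} (hB : Bᵀ = B) :
    (upp B hB)⁻¹ = upp (-B) (by rw [Matrix.transpose_neg, hB]) := by
  apply inv_eq_of_mul_eq_one_right
  rw [upp_mul]
  apply Subtype.ext
  simp [upp]

theorem low_inv {B : M2 F} (hB : Bᵀ = B) :
    (low B hB)⁻¹ = low (-B) (by rw [Matrix.transpose_neg, hB]) := by
  apply inv_eq_of_mul_eq_one_right
  rw [low_mul]
  apply Subtype.ext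
  simp [low]

theorem lev_inv {Q R : M2 F} (h : Qᵀ * R = 1) :
    (lev Q R h)⁻¹ = lev Rᵀ Qᵀ (by rw [Matrix.transpose_transpose]; exact pair_3 h) := by
  apply inv_eq_of_mul_eq_one_right
  rw [lev_mul]
  apply Subtype.ext
  simp [lev, pair_2 h, pair_3 h]

end Cfsg.Agent.Lib.Helper37.S4
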