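import Cfsg.Agent.Lib.Helper37.PSp4.S4A

/-!
# `Sp₄`: elements of the Siegel parabolic conjugate to `x`
-/

set_option autoImplicit false

namespace Cfsg.Agent.Lib.Helper37.S4

open Matrix

variable {F : Type*} [Field F]

/-- cofactor matrix -/
def cof (L : M2 F) : M2 F := !![L 1 1, -L 1 0; -L 0 1, L 0 0]

theorem transpose_mul_cof (L : M2 F) : Lᵀ * cof L = L.det • (1 : M2 F) := by
  ext i j
  fin_cases i <;> fin_cases j <;>
    simp [cof, Matrix.mul_apply, Fin.sum_univ_two, Matrix.det_fin_two] <;> ring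

/-- inverse transpose -/
def ivt (L : M2 F) : M2 F := (L.det)⁻¹ • cof L

theorem pair_ivt {L : M2 F} (h : L.det ≠ 0) : Lᵀ * ivt L = 1 := by
  rw [ivt, Matrix.mul_smul, transpose_mul_cof, smul_smul, inv_mul_cancel₀ h, one_smul]

theorem trace_ivt (L : M2 F) : (ivt L).trace = (L.det)⁻¹ * L.trace := by
  simp [ivt, cof, Matrix.trace, Fin.sum_univ_two]
  ring

theorem det_ivt {L : M2 F} (h : L.det ≠ 0) : (ivt L).det = (L.det)⁻¹ := by
  have h1 : (cof L).det = L.det := by
    simp [cof, Matrix.det_fin_two]; ring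
  rw [ivt, Matrix.det_smul, h1]
  simp
  field_simp

/-- companion matrix -/
def comp (t d : F) : M2 F := !![0, -d; 1, t]

/-- a non scalar matrix is conjugate to a companion matrix -/
theorem exists_cyclic {M : M2 F} (hM : ¬ ∃ c : F, M = c • (1 : M2 F)) :
    ∃ Q : M2 F, Q.det ≠ 0 ∧ M * Q = Q * comp M.trace M.det := by
  by_cases h1 : M 1 0 = 0
  · by_cases h2 : M 0 1 = 0
    · refine ⟨!![1, M 0 0 + M 0 1; 1, M 1 0 + M 1 1], ?_, ?_⟩
      · simp [Matrix.det_fin_two, h1, h2]
        intro h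
        apply hM
        refine ⟨M 0 0, ?_⟩
        ext i j
        fin_cases i <;> fin_cases j <;> simp [h1, h2]
        linear_combination h
      · ext i j
        fin_cases i <;> fin_cases j <;>
          simp [comp, Matrix.mul_apply, Fin.sum_univ_two, Matrix.det_fin_two, Matrix.trace] <;> ring
    · refine ⟨!![0, M 0 1; 1, M 1 1], ?_, ?_⟩
      · simpa [Matrix.det_fin_two] using h2
      · ext i j
        fin_cases i <;> fin_cases j <;>
          simp [comp, Matrix.mul_apply, Fin.sum_univ_two, Matrix.det_fin_two, Matrix.trace] <;> ring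
  · refine ⟨!![1, M 0 0; 0, M 1 0], ?_, ?_⟩
    · simpa [Matrix.det_fin_two] using h1
    · ext i j
      fin_cases i <;> fin_cases j <;>
        simp [comp, Matrix.mul_apply, Fin.sum_univ_two, Matrix.det_fin_two, Matrix.trace] <;> ring

/-- conditions on the parameter `d` -/
structure Par (d : F) : Prop where
  h0 : d ≠ 0
  h1 : d - 1 ≠ 0
  h2 : d + 2 ≠ 0
  h4 : 4 * d - 1 ≠ 0

theorem det_comp (t d : F) : (comp t d).det = d := by
  simp [comp, Matrix.det_fin_two]

theorem trace_comp (t d : F) : (comp t d).trace = t := by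
  simp [comp, Matrix.trace, Fin.sum_univ_two]

/-- the element `x` -/
def xel (d : F) (hd : d ≠ 0) : Sp4 F :=
  lev (comp 1 d) (ivt (comp 1 d)) (pair_ivt (by rw [det_comp]; exact hd))

/-- solving the Sylvester equation -/
theorem exists_sylvester {d : F} (hd : Par d) {Z : M2 F} (hZ : Zᵀ = Z) :
    ∃ Y : M2 F, Yᵀ = Y ∧ (comp 1 d)ᵀ * Y * comp 1 d - Y = Z := by
  have h0 := hd.h0
  have h1 := hd.h1
  have h2 := hd.h2
  have hz : Z 1 0 = Z 0 1 := by
    have := congrFun (congrFun hZ 0) 1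
    simpa using this
  set D : F := (d - 1) * d * (d + 2) with hD
  have hD0 : D ≠ 0 := mul_ne_zero (mul_ne_zero h1 h0) h2
  refine ⟨!![(2 * d * Z 0 0 - 2 * d * Z 0 1 + (d + 1) * Z 1 1) / D,
      (d ^ 2 * Z 0 0 - d ^ 2 * Z 0 1 + Z 1 1) / D;
      (d ^ 2 * Z 0 0 - d ^ 2 * Z 0 1 + Z 1 1) / D,
      (d ^ 2 * (d + 1) * Z 0 0 - 2 * d * Z 0 1 + (d + 1) * Z 1 1) / D], ?_, ?_⟩
  · ext i j
    fin_cases i <;> fin_cases j <;> simp
  · ext i j
    fin_cases i <;> fin_cases j <;>
      simp [comp, Matrix.mul_apply, Fin.sum_univ_two, hz] <;> field_simp <;> rw [hD] <;> ring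

theorem low_congr {C C' : M2 F} (h : Cᵀ = C) (h' : C'ᵀ = C') (e : C = C') : low C h = low C' h' := by
  subst e; rfl

theorem upp_congr {C C' : M2 F} (h : Cᵀ = C) (h' : C'ᵀ = C') (e : C = C') : upp C h = upp C' h' := by
  subst e; rfl

/-- elements of the lower Siegel parabolic with the right Levi part are conjugate to `x` -/
theorem isConj_low_lev {d : F} (hd : Par d) {C : M2 F} (hC : Cᵀ = C) {L R : M2 F}
    (h : Lᵀ * R = 1) (htr : L.trace = 1) (hdet : L.det = d) :
    IsConj (xel d hd.h0) (low C hC * lev L R h) := by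
  have hns : ¬ ∃ c : F, L = c • (1 : M2 F) := by
    rintro ⟨c, rfl⟩
    apply hd.h4
    simp [Matrix.trace, Fin.sum_univ_two] at htr
    simp [Matrix.det_fin_two] at hdet
    rw [← hdet]
    linear_combination (2 * c + 1) * htr
  obtain ⟨Q, hQ, hLQ⟩ := exists_cyclic hns
  rw [htr, hdet] at hLQ
  have e1 : lev L R h * lev Q (ivt Q) (pair_ivt hQ) = lev Q (ivt Q) (pair_ivt hQ) * xel d hd.h0 := by
    rw [xel, lev_mul, lev_mul]
    exact lev_congr _ _ hLQ
  obtain ⟨Y, hY, hYZ⟩ := exists_sylvester hd (sym_conj (sym_conj hC Q) (comp 1 d))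
  have e2 : low Y hY * xel d hd.h0 =
      low (Qᵀ * C * Q) (sym_conj hC Q) * xel d hd.h0 * low Y hY := by
    have ha : ∀ a b c : Sp4 F, a * b * c = a * (b * c) := mul_assoc
    rw [xel, low_lev, low_lev, ha, low_mul]
    congr 1
    apply low_congr
    rw [← hYZ]
    abel
  apply isConj_of_mul_eq (c := lev Q (ivt Q) (pair_ivt hQ) * low Y hY)
  calc lev Q (ivt Q) (pair_ivt hQ) * low Y hY * xel d hd.h0
      = lev Q (ivt Q) (pair_ivt hQ) * (low Y hY * xel d hd.h0) := by rw [mul_assoc]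
    _ = lev Q (ivt Q) (pair_ivt hQ) * low (Qᵀ * C * Q) (sym_conj hC Q) * xel d hd.h0 * low Y hY := by
        rw [e2]; simp only [mul_assoc]
    _ = low C hC * (lev Q (ivt Q) (pair_ivt hQ) * xel d hd.h0) * low Y hY := by
        rw [← low_lev hC (pair_ivt hQ)]; simp only [mul_assoc]
    _ = low C hC * lev L R h * (lev Q (ivt Q) (pair_ivt hQ) * low Y hY) := by
        rw [← e1]; simp only [mul_assoc]

end Cfsg.Agent.Lib.Helper37.S4
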