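import Cfsg.Agent.Lib.Helper37.PSp4.S4B

/-!
# `Sp₄`: the Gauss decomposition with respect to the Siegel parabolic
-/

set_option autoImplicit false

namespace Cfsg.Agent.Lib.Helper37.S4

open Matrix

variable {F : Type*} [Field F]

theorem sym_conj' {B : M2 F} (h : Bᵀ = B) (L : M2 F) : (-(L * B * Lᵀ))ᵀ = -(L * B * Lᵀ) := by
  simp [Matrix.transpose_mul, h, Matrix.mul_assoc]

theorem J_lev_upp {L R B : M2 F} (h : Lᵀ * R = 1) (hB : Bᵀ = B) :
    SymplecticGroup.symJ (Fin 2) F * (lev L R h * upp B hB) =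
      low (-(L * B * Lᵀ)) (sym_conj' hB L) * lev R L (pair_1 h) * SymplecticGroup.symJ (Fin 2) F := by
  apply Subtype.ext
  simp only [low, lev, upp, Submonoid.coe_mul, SymplecticGroup.coe_J, Matrix.J, fromBlocks_multiply]
  congr 1 <;> simp
  rw [Matrix.mul_assoc, h, Matrix.mul_one]

theorem isConj_lev_upp {d : F} (hd : Par d) {B : M2 F} (hB : Bᵀ = B) {L R : M2 F}
    (h : Lᵀ * R = 1) (htr : R.trace = 1) (hdet : R.det = d) :
    IsConj (xel d hd.h0) (lev L R h * upp B hB) :=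
  (isConj_low_lev hd (sym_conj' hB L) (pair_1 h) htr hdet).trans
    (isConj_of_mul_eq (J_lev_upp h hB)).symm

/-- good top left blocks -/
def Good2 (d : F) (L : M2 F) : Prop :=
  ∃ L1 L2 : M2 F, L = L1 * L2 ∧ L1.trace = 1 ∧ L1.det = d ∧ L2.trace * d = 1 ∧ L2.det * d = 1

theorem P2_of_good2 {d : F} (hd : Par d) (g : Sp4 F) (hg : Good2 d g.1.toBlocks₁₁) :
    P2 (xel d hd.h0) g := by
  obtain ⟨L1, L2, hL, ht1, hd1, ht2, hd2⟩ := hg
  set L := g.1.toBlocks₁₁ with hLdef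
  set M := g.1.toBlocks₁₂ with hMdef
  set N := g.1.toBlocks₂₁ with hNdef
  set P := g.1.toBlocks₂₂ with hPdef
  have hgb : g.1 = fromBlocks L M N P := (fromBlocks_toBlocks g.1).symm
  have hmem : fromBlocks L M N P ∈ Matrix.symplecticGroup (Fin 2) F := hgb ▸ g.2
  obtain ⟨r1, -, r3⟩ := SymplecticGroup.fromBlocks_mem_iff.1 hmem
  have hmem' := SymplecticGroup.transpose_mem hmem
  rw [fromBlocks_transpose] at hmem'
  obtain ⟨s1, -, -⟩ := SymplecticGroup.fromBlocks_mem_iff.1 hmem'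
  simp only [Matrix.transpose_transpose] at s1
  have h0 := hd.h0
  have hdL1 : L1.det ≠ 0 := by rw [hd1]; exact h0
  have hdL2 : L2.det ≠ 0 := left_ne_zero_of_mul_eq_one hd2
  have hdL2' : (L2.det)⁻¹ = d := by
    exact inv_eq_of_mul_eq_one_right hd2
  have hdL : L.det ≠ 0 := by rw [hL, Matrix.det_mul]; exact mul_ne_zero hdL1 hdL2
  set Ri := ivt L with hRi
  have hp : Lᵀ * Ri = 1 := pair_ivt hdL
  have hC : (N * Riᵀ)ᵀ = N * Riᵀ := by
    rw [Matrix.transpose_mul, Matrix.transpose_transpose]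
    calc Ri * Nᵀ = Ri * (Nᵀ * L) * Riᵀ := by
          rw [Matrix.mul_assoc, Matrix.mul_assoc, pair_2 hp, Matrix.mul_one]
      _ = (Ri * Lᵀ) * N * Riᵀ := by rw [← r1]; simp only [Matrix.mul_assoc]
      _ = N * Riᵀ := by rw [pair_3 hp, Matrix.one_mul]
  have hB : (Riᵀ * M)ᵀ = Riᵀ * M := by
    rw [Matrix.transpose_mul, Matrix.transpose_transpose]
    calc Mᵀ * Ri = (Riᵀ * L) * Mᵀ * Ri := by rw [pair_1 hp, Matrix.one_mul]
      _ = Riᵀ * (L * Mᵀ) * Ri := by simp only [Matrix.mul_assoc]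
      _ = Riᵀ * M * (Lᵀ * Ri) := by rw [s1]; simp only [Matrix.mul_assoc]
      _ = Riᵀ * M := by rw [hp, Matrix.mul_one]
  have hP : P = N * Riᵀ * M + Ri := by
    have h3 : Lᵀ * P = 1 + Nᵀ * M := by rw [← r3]; abel
    calc P = (Ri * Lᵀ) * P := by rw [pair_3 hp, Matrix.one_mul]
      _ = Ri * (Lᵀ * P) := by rw [Matrix.mul_assoc]
      _ = Ri + (Ri * Nᵀ) * M := by rw [h3, Matrix.mul_add, Matrix.mul_one, Matrix.mul_assoc]
      _ = N * Riᵀ * M + Ri := by
          have : Ri * Nᵀ = N * Riᵀ := by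
            rw [← hC, Matrix.transpose_mul, Matrix.transpose_transpose]
          rw [this, add_comm]
  have hdec : g = low (N * Riᵀ) hC * lev L Ri hp * upp (Riᵀ * M) hB := by
    apply Subtype.ext
    rw [hgb]
    simp only [low, lev, upp, Submonoid.coe_mul, fromBlocks_multiply]
    congr 1
    · simp
    · simp only [Matrix.one_mul, Matrix.zero_mul, add_zero, Matrix.mul_zero, Matrix.mul_one]
      rw [← Matrix.mul_assoc, pair_2 hp, Matrix.one_mul]
    · simp only [Matrix.one_mul, Matrix.zero_mul, add_zero, Matrix.mul_zero, Matrix.mul_one]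
      rw [Matrix.mul_assoc, pair_1 hp, Matrix.mul_one]
    · simp only [Matrix.one_mul, Matrix.zero_mul, add_zero, Matrix.mul_zero, Matrix.mul_one,
        zero_add]
      rw [hP]
      congr 1
      rw [Matrix.mul_assoc N Riᵀ L, pair_1 hp, Matrix.mul_one, Matrix.mul_assoc]
  have hlev : lev L Ri hp = lev L1 (ivt L1) (pair_ivt hdL1) * lev L2 (ivt L2) (pair_ivt hdL2) := by
    rw [lev_mul]
    exact lev_congr _ _ hL
  have c1 := isConj_low_lev hd hC (pair_ivt hdL1) ht1 hd1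
  have c2 := isConj_lev_upp hd hB (pair_ivt hdL2)
    (by rw [trace_ivt, hdL2', mul_comm]; exact ht2) (by rw [det_ivt hdL2, hdL2'])
  have := P2.of_isConj c1 c2
  rw [hdec, hlev]
  simpa only [mul_assoc] using this

end Cfsg.Agent.Lib.Helper37.S4
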