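import Cfsg.Agent.Lib.Helper37.PSp4.S4C

/-!
# `Sp₄`: which top left blocks are good
-/

set_option autoImplicit false

namespace Cfsg.Agent.Lib.Helper37.S4

open Matrix

variable {F : Type*} [Field F]

theorem Good2.conj {d : F} {L Q Qi : M2 F} (h : Good2 d L) (hQ : Q * Qi = 1) :
    Good2 d (Q * L * Qi) := by
  obtain ⟨L1, L2, rfl, ht1, hd1, ht2, hd2⟩ := h
  have hQ' : Qi * Q = 1 := _root_.mul_eq_one_comm.1 hQ
  have hdet : Q.det * Qi.det = 1 := by rw [← Matrix.det_mul, hQ, Matrix.det_one]
  have tr : ∀ X : M2 F, (Q * X * Qi).trace = X.trace := by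
    intro X
    rw [Matrix.trace_mul_comm, ← Matrix.mul_assoc, hQ', Matrix.one_mul]
  have dt : ∀ X : M2 F, (Q * X * Qi).det = X.det := by
    intro X
    rw [Matrix.det_mul, Matrix.det_mul]
    linear_combination X.det * hdet
  refine ⟨Q * L1 * Qi, Q * L2 * Qi, ?_, ?_, ?_, ?_, ?_⟩
  · calc Q * (L1 * L2) * Qi = Q * L1 * 1 * L2 * Qi := by simp only [Matrix.mul_assoc, Matrix.one_mul]
      _ = _ := by rw [← hQ']; simp only [Matrix.mul_assoc]
  · rw [tr, ht1]
  · rw [dt, hd1]
  · rw [tr, ht2]
  · rw [dt, hd2]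

theorem good2_comp {d τ α β : F} (hd : d ≠ 0)
    (h : α ^ 2 - τ * α * β + β ^ 2 - α + β + d = 0) : Good2 d (comp τ 1) := by
  refine ⟨!![α, β; β + 1 - α * τ, 1 - α], d⁻¹ • !![-β, α - 1 - β * τ; α, β + 1], ?_, ?_, ?_, ?_, ?_⟩
  · ext i j
    fin_cases i <;> fin_cases j <;> simp [comp, Matrix.mul_apply, Fin.sum_univ_two] <;>
      field_simp <;>
      first | ring1 | linear_combination -h | linear_combination h | linear_combination τ * h
  · simp [Matrix.trace, Fin.sum_univ_two]
  · simp [Matrix.det_fin_two]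
    linear_combination -h
  · simp [Matrix.trace, Fin.sum_univ_two]
    field_simp
    ring
  · simp [Matrix.det_fin_two]
    field_simp
    linear_combination -h

theorem good2_one {d : F} (hd : d ≠ 0) : Good2 d 1 := by
  refine ⟨comp 1 d, d⁻¹ • !![1, d; -1, 0], ?_, trace_comp _ _, det_comp _ _, ?_, ?_⟩
  · ext i j
    fin_cases i <;> fin_cases j <;> simp [comp, Matrix.mul_apply, Fin.sum_univ_two, hd]
  · simp [Matrix.trace, Fin.sum_univ_two, hd]
  · simp [Matrix.det_fin_two]
    field_simp

theorem good2_of_conic {d α β : F} (hd : d ≠ 0) {L : M2 F}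
    (hns : ¬ ∃ c : F, L = c • (1 : M2 F)) (hdet : L.det = 1)
    (h : α ^ 2 - L.trace * α * β + β ^ 2 - α + β + d = 0) : Good2 d L := by
  obtain ⟨Q, hQ, hLQ⟩ := exists_cyclic hns
  rw [hdet] at hLQ
  have h1 : Q * (ivt Q)ᵀ = 1 := pair_2 (pair_ivt hQ)
  have := (good2_comp hd h).conj h1
  rwa [← hLQ, Matrix.mul_assoc, h1, Matrix.mul_one] at this

theorem exists_conic_odd [Fintype F] (hF : Fintype.card F % 2 = 1) (d τ : F) (h2 : τ ≠ 2) :
    ∃ α β : F, α ^ 2 - τ * α * β + β ^ 2 - α + β + d = 0 := by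
  have two : (2 : F) ≠ 0 := by
    apply Ring.two_ne_zero
    intro h
    have := FiniteField.even_card_iff_char_two.1 h
    omega
  by_cases h3 : τ = -2
  · refine ⟨d / 2, -d / 2, ?_⟩
    rw [h3]
    field_simp
    ring
  · have ha : 2 - τ ≠ 0 := fun h => h2 (by linear_combination -h)
    have hb : (2 + τ) / 4 ≠ 0 := by
      apply div_ne_zero
      · intro h; exact h3 (by linear_combination h)
      · have : (4 : F) = 2 * 2 := by norm_num
        rw [this]; exact mul_ne_zero two two
    obtain ⟨Y, δ, hYδ⟩ := FiniteField.exists_root_sum_quadratic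
      (Polynomial.degree_quadratic (a := 2 - τ) (b := 0) (c := 0) ha)
      (Polynomial.degree_quadratic (a := (2 + τ) / 4) (b := -1) (c := d) hb) hF
    simp at hYδ
    refine ⟨Y + δ / 2, Y - δ / 2, ?_⟩
    have four : (4 : F) ≠ 0 := by
      have : (4 : F) = 2 * 2 := by norm_num
      rw [this]; exact mul_ne_zero two two
    field_simp at hYδ ⊢
    linear_combination hYδ

theorem scalar_cases {L : M2 F} (hdet : L.det = 1) (hs : ∃ c : F, L = c • (1 : M2 F)) :
    L = 1 ∨ -L = 1 := by
  obtain ⟨c, rfl⟩ := hs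
  simp at hdet
  rcases hdet with h | h
  · left
    rw [h, one_smul]
  · right
    rw [h]
    simp

theorem goodL_odd [Fintype F] (hF : Fintype.card F % 2 = 1) {d : F} (hd : d ≠ 0) {L : M2 F}
    (hdet : L.det = 1) : Good2 d L ∨ Good2 d (-L) := by
  by_cases hs : ∃ c : F, L = c • (1 : M2 F)
  · rcases scalar_cases hdet hs with h | h
    · left; rw [h]; exact good2_one hd
    · right; rw [h]; exact good2_one hd
  · by_cases h2 : L.trace = 2
    · right
      have two : (2 : F) ≠ 0 := by
        apply Ring.two_ne_zero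
        intro h
        have := FiniteField.even_card_iff_char_two.1 h
        omega
      have hns : ¬ ∃ c : F, -L = c • (1 : M2 F) := by
        rintro ⟨c, hc⟩
        exact hs ⟨-c, by rw [neg_smul, ← hc, neg_neg]⟩
      have hdet' : (-L).det = 1 := by
        rw [Matrix.det_neg, hdet]; simp
      have htr : (-L).trace ≠ 2 := by
        rw [Matrix.trace_neg, h2]
        intro h
        apply two
        have : (4 : F) = 0 := by linear_combination -h
        have h4 : (2 : F) * 2 = 0 := by linear_combination this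
        exact (mul_self_eq_zero.1 h4)
      obtain ⟨α, β, h⟩ := exists_conic_odd hF d (-L).trace htr
      exact good2_of_conic hd hns hdet' h
    · left
      obtain ⟨α, β, h⟩ := exists_conic_odd hF d L.trace h2
      exact good2_of_conic hd hs hdet h

theorem good2_even [Fintype F] (h2 : (2 : F) = 0) {d : F} (hd : d ≠ 0) {L : M2 F}
    (hdet : L.det = 1) (htr : L.trace ≠ 0) : Good2 d L := by
  have hns : ¬ ∃ c : F, L = c • (1 : M2 F) := by
    rintro ⟨c, rfl⟩
    apply htr
    simp [Matrix.trace]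
    left; exact h2
  have hch : ringChar F = 2 := CharP.ringChar_of_prime_eq_zero Nat.prime_two (by exact_mod_cast h2)
  obtain ⟨r, hr⟩ := FiniteField.isSquare_of_char_two hch (d / L.trace)
  have hr' : r * r * L.trace = d := by rw [← hr]; field_simp
  refine good2_of_conic (α := r) (β := r) hd hns hdet ?_
  linear_combination r ^ 2 * h2 - hr'

end Cfsg.Agent.Lib.Helper37.S4
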