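import Cfsg.Agent.Lib.Helper37.PSp4.S4D

/-!
# `Sp₄`: conjugating to get a good top left block, part 1 (block formulas)
-/

set_option autoImplicit false

namespace Cfsg.Agent.Lib.Helper37.S4

open Matrix

variable {F : Type*} [Field F]

theorem coe_eq (g : Sp4 F) :
    g.1 = fromBlocks g.1.toBlocks₁₁ g.1.toBlocks₁₂ g.1.toBlocks₂₁ g.1.toBlocks₂₂ :=
  (fromBlocks_toBlocks g.1).symm

theorem conj_upp (g : Sp4 F) {S : M2 F} (hS : Sᵀ = S) :
    ∃ c : Sp4 F, (c * g * c⁻¹).1.toBlocks₁₁ = g.1.toBlocks₁₁ - S * g.1.toBlocks₂₁ ∧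
      (c * g * c⁻¹).1.toBlocks₂₁ = g.1.toBlocks₂₁ := by
  refine ⟨(upp S hS)⁻¹, ?_⟩
  rw [inv_inv, upp_inv]
  simp only [Submonoid.coe_mul, upp]
  rw [coe_eq g]
  simp only [fromBlocks_multiply, toBlocks_fromBlocks₁₁, toBlocks_fromBlocks₂₁]
  constructor
  · simp [sub_eq_add_neg]
  · simp

theorem conj_lev (g : Sp4 F) {Q R : M2 F} (h : Qᵀ * R = 1) :
    ∃ c : Sp4 F, (c * g * c⁻¹).1.toBlocks₁₁ = Rᵀ * g.1.toBlocks₁₁ * Q ∧
      (c * g * c⁻¹).1.toBlocks₂₁ = Qᵀ * g.1.toBlocks₂₁ * Q := by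
  refine ⟨(lev Q R h)⁻¹, ?_⟩
  rw [inv_inv, lev_inv]
  simp only [Submonoid.coe_mul, lev]
  rw [coe_eq g]
  simp only [fromBlocks_multiply, toBlocks_fromBlocks₁₁, toBlocks_fromBlocks₂₁]
  constructor <;> simp

theorem conj_low (g : Sp4 F) {Y : M2 F} (hY : Yᵀ = Y) :
    ∃ c : Sp4 F, (c * g * c⁻¹).1.toBlocks₂₁ =
      -Y * g.1.toBlocks₁₁ + g.1.toBlocks₂₁ + (-Y * g.1.toBlocks₁₂ + g.1.toBlocks₂₂) * Y := by
  refine ⟨(low Y hY)⁻¹, ?_⟩
  rw [inv_inv, low_inv]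
  simp only [Submonoid.coe_mul, low]
  rw [coe_eq g]
  simp only [fromBlocks_multiply, toBlocks_fromBlocks₁₁, toBlocks_fromBlocks₂₁]
  simp

theorem conj_J (g : Sp4 F) :
    ∃ c : Sp4 F, (c * g * c⁻¹).1.toBlocks₂₁ = -g.1.toBlocks₁₂ := by
  refine ⟨SymplecticGroup.symJ (Fin 2) F, ?_⟩
  have hinv : ((SymplecticGroup.symJ (Fin 2) F)⁻¹).1 = fromBlocks 0 1 (-1) 0 := by
    rw [SymplecticGroup.coe_inv, SymplecticGroup.coe_J, J_transpose]
    simp only [Matrix.J, fromBlocks_neg, fromBlocks_multiply]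
    simp
  simp only [Submonoid.coe_mul, hinv, SymplecticGroup.coe_J, Matrix.J]
  rw [coe_eq g]
  simp only [fromBlocks_multiply, toBlocks_fromBlocks₁₁, toBlocks_fromBlocks₂₁]
  simp

/-- a non central element has a conjugate with non zero lower left block -/
theorem exists_conj_N_ne_zero (g : Sp4 F) (hg : g ∉ Subgroup.center (Sp4 F)) :
    ∃ c : Sp4 F, (c * g * c⁻¹).1.toBlocks₂₁ ≠ 0 := by
  by_contra hcon
  push Not at hcon
  apply hg
  have hN : g.1.toBlocks₂₁ = 0 := by simpa using hcon 1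
  have hM : g.1.toBlocks₁₂ = 0 := by
    obtain ⟨c, hc⟩ := conj_J g
    rw [hcon c] at hc
    exact neg_eq_zero.1 hc.symm
  have hY : ∀ Y : M2 F, Yᵀ = Y → g.1.toBlocks₂₂ * Y = Y * g.1.toBlocks₁₁ := by
    intro Y hY
    obtain ⟨c, hc⟩ := conj_low g hY
    rw [hcon c, hN, hM] at hc
    simp at hc
    rw [add_comm, ← sub_eq_add_neg] at hc
    exact sub_eq_zero.1 hc.symm
  have hPL : g.1.toBlocks₂₂ = g.1.toBlocks₁₁ := by
    simpa using hY 1 (by simp)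
  set L := g.1.toBlocks₁₁ with hL
  have h1 := hY !![1, 0; 0, 0] (by ext i j; fin_cases i <;> fin_cases j <;> simp)
  have h2 := hY !![0, 1; 1, 0] (by ext i j; fin_cases i <;> fin_cases j <;> simp)
  rw [hPL] at h1 h2
  have a1 := congrFun (congrFun h1 0) 1
  have a2 := congrFun (congrFun h1 1) 0
  have a3 := congrFun (congrFun h2 0) 1
  simp [Matrix.mul_apply, Fin.sum_univ_two] at a1 a2 a3
  have hLs : L = L 0 0 • (1 : M2 F) := by
    ext i j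
    fin_cases i <;> fin_cases j <;> simp [← a1, a2, a3]
  have hgs : g.1 = L 0 0 • (1 : Matrix (Fin 2 ⊕ Fin 2) (Fin 2 ⊕ Fin 2) F) := by
    rw [coe_eq g, hN, hM, hPL, ← hL, hLs, ← fromBlocks_one, fromBlocks_smul]
    simp
  rw [Subgroup.mem_center_iff]
  intro h
  apply Subtype.ext
  simp only [Submonoid.coe_mul, hgs]
  simp

end Cfsg.Agent.Lib.Helper37.S4
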