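import Cfsg.Agent.Lib.Helper37.PSp4.S4E

/-!
# `Sp₄`: conjugating to get a good top left block, part 2
-/

set_option autoImplicit false

namespace Cfsg.Agent.Lib.Helper37.S4

open Matrix

variable {F : Type*} [Field F]

theorem rels (g : Sp4 F) :
    g.1.toBlocks₁₁ᵀ * g.1.toBlocks₂₁ = g.1.toBlocks₂₁ᵀ * g.1.toBlocks₁₁ ∧
    g.1.toBlocks₁₁ᵀ * g.1.toBlocks₂₂ - g.1.toBlocks₂₁ᵀ * g.1.toBlocks₁₂ = 1 := by
  have hmem : fromBlocks g.1.toBlocks₁₁ g.1.toBlocks₁₂ g.1.toBlocks₂₁ g.1.toBlocks₂₂ ∈
      Matrix.symplecticGroup (Fin 2) F := (coe_eq g) ▸ g.2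
  obtain ⟨r1, -, r3⟩ := SymplecticGroup.fromBlocks_mem_iff.1 hmem
  exact ⟨r1, r3⟩

/-- the property of the top left block we are after -/
def Nice (L : M2 F) : Prop := L.det = 1 ∧ ((2 : F) = 0 → L.trace ≠ 0 ∨ L = 1)

/-- invertible lower left block: the top left block can be `S' * N` -/
theorem conj_invertible (g : Sp4 F) (hN : g.1.toBlocks₂₁.det ≠ 0) {S' : M2 F} (hS' : S'ᵀ = S') :
    ∃ c : Sp4 F, (c * g * c⁻¹).1.toBlocks₁₁ = S' * g.1.toBlocks₂₁ := by
  obtain ⟨r1, -⟩ := rels g
  set L := g.1.toBlocks₁₁ with hL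
  set N := g.1.toBlocks₂₁ with hNdef
  have hp : Nᵀ * ivt N = 1 := pair_ivt hN
  have hsym : (L * (ivt N)ᵀ)ᵀ = L * (ivt N)ᵀ := by
    rw [Matrix.transpose_mul, Matrix.transpose_transpose]
    calc ivt N * Lᵀ = ivt N * (Lᵀ * N) * (ivt N)ᵀ := by
          rw [Matrix.mul_assoc, Matrix.mul_assoc, pair_2 hp, Matrix.mul_one]
      _ = (ivt N * Nᵀ) * L * (ivt N)ᵀ := by rw [r1]; simp only [Matrix.mul_assoc]
      _ = L * (ivt N)ᵀ := by rw [pair_3 hp, Matrix.one_mul]
  obtain ⟨c, hc, -⟩ := conj_upp g (S := L * (ivt N)ᵀ - S')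
    (by rw [Matrix.transpose_sub, hsym, hS'])
  refine ⟨c, ?_⟩
  rw [hc, ← hL, ← hNdef, Matrix.sub_mul, Matrix.mul_assoc, pair_1 hp, Matrix.mul_one]
  abel

theorem nice_invertible_odd (g : Sp4 F) (hN : g.1.toBlocks₂₁.det ≠ 0) (h2 : (2 : F) ≠ 0) :
    ∃ c : Sp4 F, Nice (c * g * c⁻¹).1.toBlocks₁₁ := by
  obtain ⟨c, hc⟩ := conj_invertible g hN (S' := !![1, 0; 0, (g.1.toBlocks₂₁.det)⁻¹])
    (by ext i j; fin_cases i <;> fin_cases j <;> simp)
  refine ⟨c, ?_, fun h => absurd h h2⟩
  rw [hc, Matrix.det_mul]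
  simp [Matrix.det_fin_two_of]
  exact inv_mul_cancel₀ (by simpa [Matrix.det_fin_two] using hN)

theorem nice_invertible_even [Fintype F] (g : Sp4 F) (hN : g.1.toBlocks₂₁.det ≠ 0)
    (h2 : (2 : F) = 0) : ∃ c : Sp4 F, Nice (c * g * c⁻¹).1.toBlocks₁₁ := by
  set N := g.1.toBlocks₂₁ with hNdef
  have hch : ringChar F = 2 := CharP.ringChar_of_prime_eq_zero Nat.prime_two (by exact_mod_cast h2)
  obtain ⟨r, hr⟩ := FiniteField.isSquare_of_char_two hch (N.det)⁻¹
  have hr' : r * r * N.det = 1 := by rw [← hr]; exact inv_mul_cancel₀ hN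
  have hr0 : r ≠ 0 := by
    rintro rfl
    simp at hr'
  have hdet2 : N.det = N 0 0 * N 1 1 - N 0 1 * N 1 0 := Matrix.det_fin_two N
  by_cases h00 : N 0 0 = 0
  · by_cases h11 : N 1 1 = 0
    · obtain ⟨c, hc⟩ := conj_invertible g hN (S' := !![0, r; r, 0])
        (by ext i j; fin_cases i <;> fin_cases j <;> simp)
      refine ⟨c, ?_, fun _ => ?_⟩
      · rw [hc, Matrix.det_mul, ← hNdef]
        simp [Matrix.det_fin_two_of]
        linear_combination hr' - r * r * N.det * h2
      · rw [hc, ← hNdef]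
        by_cases hs : N 0 1 + N 1 0 = 0
        · right
          have h3 : (r * N 0 1 - 1) * (r * N 0 1 - 1) = 0 := by
            rw [hdet2, h00, h11] at hr'
            have : N 1 0 = - N 0 1 := by linear_combination hs
            rw [this] at hr'
            linear_combination hr' + (1 - r * N 0 1) * h2
          have h4 : r * N 0 1 = 1 := by
            have := mul_self_eq_zero.1 h3
            linear_combination this
          have h5 : r * N 1 0 = 1 := by
            have : N 1 0 = N 0 1 := by linear_combination hs - N 0 1 * h2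
            rw [this, h4]
          ext i j
          fin_cases i <;> fin_cases j <;>
            simp [Matrix.mul_apply, Fin.sum_univ_two, h00, h11, h4, h5]
        · left
          simp [Matrix.trace, Matrix.vecMul, dotProduct, Fin.sum_univ_two]
          intro h
          apply hs
          have : r * (N 0 1 + N 1 0) = 0 := by linear_combination h
          exact (mul_eq_zero.1 this).resolve_left hr0
    · obtain ⟨c, hc⟩ := conj_invertible g hN
        (S' := !![0, r; r, (1 - r * (N 0 1 + N 1 0)) / N 1 1])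
        (by ext i j; fin_cases i <;> fin_cases j <;> simp)
      refine ⟨c, ?_, fun _ => ?_⟩
      · rw [hc, Matrix.det_mul, ← hNdef]
        simp [Matrix.det_fin_two_of]
        linear_combination hr' - r * r * N.det * h2
      · left
        rw [hc, ← hNdef]
        simp [Matrix.trace, Matrix.vecMul, dotProduct, Fin.sum_univ_two]
        field_simp
        intro h
        have : (1 : F) = 0 := by linear_combination h
        exact one_ne_zero this
  · obtain ⟨c, hc⟩ := conj_invertible g hN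
      (S' := !![(1 - r * (N 0 1 + N 1 0)) / N 0 0, r; r, 0])
      (by ext i j; fin_cases i <;> fin_cases j <;> simp)
    refine ⟨c, ?_, fun _ => ?_⟩
    · rw [hc, Matrix.det_mul, ← hNdef]
      simp [Matrix.det_fin_two_of]
      linear_combination hr' - r * r * N.det * h2
    · left
      rw [hc, ← hNdef]
      simp [Matrix.trace, Matrix.vecMul, dotProduct, Fin.sum_univ_two]
      field_simp
      intro h
      have : (1 : F) = 0 := by linear_combination h
      exact one_ne_zero this

end Cfsg.Agent.Lib.Helper37.S4
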