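import Cfsg.Agent.Lib.Helper37.PSp4.S4F

/-!
# `Sp₄`: conjugating to get a good top left block, part 3 (singular lower left block)
-/

set_option autoImplicit false

namespace Cfsg.Agent.Lib.Helper37.S4

open Matrix

variable {F : Type*} [Field F]

theorem conj_kernel (g : Sp4 F) (hN0 : g.1.toBlocks₂₁ ≠ 0) (hdet : g.1.toBlocks₂₁.det = 0) :
    ∃ c : Sp4 F, (c * g * c⁻¹).1.toBlocks₂₁ ≠ 0 ∧ (c * g * c⁻¹).1.toBlocks₂₁ 0 0 = 0 ∧
      (c * g * c⁻¹).1.toBlocks₂₁ 1 0 = 0 := by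
  set N := g.1.toBlocks₂₁ with hNdef
  obtain ⟨v, hv, hNv⟩ := Matrix.exists_mulVec_eq_zero_iff.2 hdet
  have hv0 : N 0 0 * v 0 + N 0 1 * v 1 = 0 := by
    have := congrFun hNv 0
    simpa [Matrix.mulVec, dotProduct, Fin.sum_univ_two] using this
  have hv1 : N 1 0 * v 0 + N 1 1 * v 1 = 0 := by
    have := congrFun hNv 1
    simpa [Matrix.mulVec, dotProduct, Fin.sum_univ_two] using this
  obtain ⟨Q, hQ, hQ0, hQ1⟩ : ∃ Q : M2 F, Q.det ≠ 0 ∧ Q 0 0 = v 0 ∧ Q 1 0 = v 1 := by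
    by_cases h : v 0 = 0
    · refine ⟨!![v 0, 1; v 1, 0], ?_, rfl, rfl⟩
      simp [Matrix.det_fin_two_of]
      intro h1
      apply hv
      ext i
      fin_cases i
      · exact h
      · exact h1
    · refine ⟨!![v 0, 0; v 1, 1], ?_, rfl, rfl⟩
      simpa [Matrix.det_fin_two_of] using h
  obtain ⟨c, -, hc⟩ := conj_lev g (pair_ivt hQ)
  refine ⟨c, ?_, ?_, ?_⟩
  · rw [hc, ← hNdef]
    intro h
    apply hN0
    have hp := pair_ivt hQ
    calc N = (ivt Q * Qᵀ) * N * (Q * (ivt Q)ᵀ) := by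
          rw [pair_3 hp, pair_2 hp, Matrix.one_mul, Matrix.mul_one]
      _ = ivt Q * (Qᵀ * N * Q) * (ivt Q)ᵀ := by simp only [Matrix.mul_assoc]
      _ = 0 := by rw [h]; simp
  · rw [hc, ← hNdef]
    simp only [Matrix.mul_apply, Fin.sum_univ_two, Matrix.transpose_apply, hQ0, hQ1]
    linear_combination v 0 * hv0 + v 1 * hv1
  · rw [hc, ← hNdef]
    simp only [Matrix.mul_apply, Fin.sum_univ_two, Matrix.transpose_apply, hQ0, hQ1]
    linear_combination Q 0 1 * hv0 + Q 1 1 * hv1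

theorem exists_sym_apply {n1 n2 : F} (h : ¬ (n1 = 0 ∧ n2 = 0)) (z1 z2 : F) :
    ∃ S : M2 F, Sᵀ = S ∧ S 0 0 * n1 + S 0 1 * n2 = z1 ∧ S 1 0 * n1 + S 1 1 * n2 = z2 := by
  by_cases h1 : n1 = 0
  · have h2 : n2 ≠ 0 := fun h2 => h ⟨h1, h2⟩
    refine ⟨!![0, z1 / n2; z1 / n2, z2 / n2], ?_, ?_, ?_⟩
    · ext i j; fin_cases i <;> fin_cases j <;> simp
    · simp [h1]; field_simp
    · simp [h1]; field_simp
  · refine ⟨!![(z1 - z2 / n1 * n2) / n1, z2 / n1; z2 / n1, 0], ?_, ?_, ?_⟩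
    · ext i j; fin_cases i <;> fin_cases j <;> simp
    · simp; field_simp; ring
    · simp; field_simp

theorem conj_second_col (g : Sp4 F) (hN0 : g.1.toBlocks₂₁ ≠ 0) (h00 : g.1.toBlocks₂₁ 0 0 = 0)
    (h10 : g.1.toBlocks₂₁ 1 0 = 0) (y1 y2 : F) :
    ∃ c : Sp4 F, (c * g * c⁻¹).1.toBlocks₁₁ =
      !![g.1.toBlocks₁₁ 0 0, y1; g.1.toBlocks₁₁ 1 0, y2] := by
  set N := g.1.toBlocks₂₁ with hNdef
  set L := g.1.toBlocks₁₁ with hLdef
  have hn : ¬ (N 0 1 = 0 ∧ N 1 1 = 0) := by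
    rintro ⟨h1, h2⟩
    apply hN0
    ext i j
    fin_cases i <;> fin_cases j <;> simp [h00, h10, h1, h2]
  obtain ⟨S, hS, e1, e2⟩ := exists_sym_apply hn (L 0 1 - y1) (L 1 1 - y2)
  obtain ⟨c, hc, -⟩ := conj_upp g hS
  refine ⟨c, ?_⟩
  rw [hc, ← hNdef, ← hLdef]
  ext i j
  fin_cases i <;> fin_cases j <;> simp [Matrix.mul_apply, Fin.sum_univ_two, h00, h10]
  · linear_combination -e1
  · linear_combination -e2

theorem nice_singular (g : Sp4 F) (hN0 : g.1.toBlocks₂₁ ≠ 0) (h00 : g.1.toBlocks₂₁ 0 0 = 0)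
    (h10 : g.1.toBlocks₂₁ 1 0 = 0) : ∃ c : Sp4 F, Nice (c * g * c⁻¹).1.toBlocks₁₁ := by
  obtain ⟨-, r3⟩ := rels g
  set N := g.1.toBlocks₂₁ with hNdef
  set L := g.1.toBlocks₁₁ with hLdef
  have hc0 : L 0 0 * g.1.toBlocks₂₂ 0 0 + L 1 0 * g.1.toBlocks₂₂ 1 0 = 1 := by
    have := congrFun (congrFun r3 0) 0
    simpa [Matrix.mul_apply, Fin.sum_univ_two, h00, h10] using this
  by_cases h : L 1 0 = 0
  · have hl : L 0 0 ≠ 0 := by
      intro h'
      rw [h, h'] at hc0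
      simp at hc0
    obtain ⟨c, hc⟩ := conj_second_col g hN0 h00 h10 0 (L 0 0)⁻¹
    refine ⟨c, ?_, fun h2 => ?_⟩
    · rw [hc, ← hLdef]
      simp [Matrix.det_fin_two_of, hl]
    · rw [hc, ← hLdef, h]
      by_cases h1 : L 0 0 = 1
      · right
        rw [h1]
        ext i j
        fin_cases i <;> fin_cases j <;> simp
      · left
        simp [Matrix.trace, Fin.sum_univ_two]
        intro h3
        apply h1
        have h4 : (L 0 0 - 1) * (L 0 0 - 1) = 0 := by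
          have h5 : L 0 0 * (L 0 0)⁻¹ = 1 := mul_inv_cancel₀ hl
          linear_combination L 0 0 * h3 - h5 - L 0 0 * h2
        have := mul_self_eq_zero.1 h4
        linear_combination this
  · obtain ⟨c, hc⟩ := conj_second_col g hN0 h00 h10 ((L 0 0 * (1 - L 0 0) - 1) / L 1 0) (1 - L 0 0)
    refine ⟨c, ?_, fun _ => ?_⟩
    · rw [hc, ← hLdef]
      simp [Matrix.det_fin_two_of]
      field_simp
      ring
    · left
      rw [hc, ← hLdef]
      simp [Matrix.trace, Fin.sum_univ_two]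

/-- every non central element has a conjugate with a nice top left block -/
theorem exists_nice [Fintype F] (g : Sp4 F) (hg : g ∉ Subgroup.center (Sp4 F)) :
    ∃ c : Sp4 F, Nice (c * g * c⁻¹).1.toBlocks₁₁ := by
  have key : ∀ g' : Sp4 F, g'.1.toBlocks₂₁ ≠ 0 → ∃ c : Sp4 F, Nice (c * g' * c⁻¹).1.toBlocks₁₁ := by
    intro g' hN0
    by_cases hdet : g'.1.toBlocks₂₁.det = 0
    · obtain ⟨c1, h1, h2, h3⟩ := conj_kernel g' hN0 hdet
      obtain ⟨c2, hc2⟩ := nice_singular _ h1 h2 h3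
      refine ⟨c2 * c1, ?_⟩
      have : c2 * c1 * g' * (c2 * c1)⁻¹ = c2 * (c1 * g' * c1⁻¹) * c2⁻¹ := by group
      rw [this]; exact hc2
    · by_cases h2 : (2 : F) = 0
      · exact nice_invertible_even g' hdet h2
      · exact nice_invertible_odd g' hdet h2
  obtain ⟨c1, h1⟩ := exists_conj_N_ne_zero g hg
  obtain ⟨c2, hc2⟩ := key _ h1
  refine ⟨c2 * c1, ?_⟩
  have : c2 * c1 * g * (c2 * c1)⁻¹ = c2 * (c1 * g * c1⁻¹) * c2⁻¹ := by group
  rw [this]; exact hc2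

end Cfsg.Agent.Lib.Helper37.S4
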