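import Cfsg.Agent.Lib.Helper37.PSp4.S4G

/-!
# `Sp₄`: the class of `x` squared covers the non central elements up to sign
-/

set_option autoImplicit false

namespace Cfsg.Agent.Lib.Helper37.S4

open Matrix

variable {F : Type*} [Field F]

/-- `-1` in `Sp₄` -/
def negOne (F : Type*) [Field F] : Sp4 F := ⟨-1, SymplecticGroup.neg_mem (Submonoid.one_mem _)⟩

theorem negOne_mem_center : negOne F ∈ Subgroup.center (Sp4 F) := by
  rw [Subgroup.mem_center_iff]
  intro h
  apply Subtype.ext
  simp [negOne]

theorem negOne_mul_block (g : Sp4 F) : (negOne F * g).1.toBlocks₁₁ = -g.1.toBlocks₁₁ := by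
  simp only [Submonoid.coe_mul, negOne]
  ext i j
  simp [Matrix.toBlocks₁₁]

theorem cover [Fintype F] {d : F} (hd : Par d) (g : Sp4 F) (hg : g ∉ Subgroup.center (Sp4 F)) :
    ∃ z ∈ Subgroup.center (Sp4 F), P2 (xel d hd.h0) (z * g) := by
  obtain ⟨c, hdet, htr⟩ := exists_nice g hg
  by_cases h2 : (2 : F) = 0
  · refine ⟨1, Subgroup.one_mem _, ?_⟩
    rw [one_mul]
    apply P2.of_conj c
    apply P2_of_good2 hd
    rcases htr h2 with h | h
    · exact good2_even h2 hd.h0 hdet h
    · rw [h]; exact good2_one hd.h0
  · have hF : Fintype.card F % 2 = 1 := by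
      apply FiniteField.odd_card_of_char_ne_two
      intro h
      apply h2
      have := ringChar.Nat.cast_ringChar (R := F)
      rw [h] at this
      exact_mod_cast this
    rcases goodL_odd hF hd.h0 hdet with h | h
    · refine ⟨1, Subgroup.one_mem _, ?_⟩
      rw [one_mul]
      exact P2.of_conj c (P2_of_good2 hd _ h)
    · refine ⟨negOne F, negOne_mem_center, ?_⟩
      apply P2.of_conj c
      have e : c * (negOne F * g) * c⁻¹ = negOne F * (c * g * c⁻¹) := by
        have := Subgroup.mem_center_iff.1 (negOne_mem_center (F := F)) c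
        calc c * (negOne F * g) * c⁻¹ = (c * negOne F) * g * c⁻¹ := by simp only [mul_assoc]
          _ = negOne F * (c * g * c⁻¹) := by rw [this]; simp only [mul_assoc]
      rw [e]
      apply P2_of_good2 hd
      rw [negOne_mul_block]
      exact h

theorem exists_par [Fintype F] (h3 : 3 ≤ Fintype.card F) : ∃ d : F, Par d := by
  classical
  by_cases h5 : 5 ≤ Fintype.card F
  · obtain ⟨d, hd⟩ : ∃ d : F, d ∉ ({0, 1, -2, 4⁻¹} : Finset F) := by
      by_contra hcon
      push Not at hcon
      have : Fintype.card F ≤ ({0, 1, -2, 4⁻¹} : Finset F).card := by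
        rw [← Finset.card_univ]
        exact Finset.card_le_card (fun x _ => hcon x)
      have h' : ({0, 1, -2, 4⁻¹} : Finset F).card ≤ 4 := Finset.card_le_four
      omega
    simp only [Finset.mem_insert, Finset.mem_singleton, not_or] at hd
    obtain ⟨a0, a1, a2, a3⟩ := hd
    refine ⟨d, a0, sub_ne_zero.2 a1, fun h => a2 (by linear_combination h), fun h => a3 ?_⟩
    have h4 : (4 : F) * d = 1 := by linear_combination h
    exact eq_inv_of_mul_eq_one_right h4
  · have hc := FiniteField.cast_card_eq_zero F
    have : Fintype.card F = 3 ∨ Fintype.card F = 4 := by omega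
    rcases this with h | h
    · rw [h] at hc
      have hc3 : (3 : F) = 0 := by exact_mod_cast hc
      refine ⟨-1, by simp, fun h => ?_, fun h => ?_, fun h => ?_⟩
      · have : (1 : F) = 0 := by linear_combination h + hc3
        exact one_ne_zero this
      · have : (1 : F) = 0 := by linear_combination h
        exact one_ne_zero this
      · have : (1 : F) = 0 := by linear_combination h + 2 * hc3
        exact one_ne_zero this
    · rw [h] at hc
      have hc4 : (4 : F) = 0 := by exact_mod_cast hc
      have hc2 : (2 : F) = 0 := by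
        have : (2 : F) * 2 = 0 := by linear_combination hc4
        exact mul_self_eq_zero.1 this
      obtain ⟨d, hd⟩ : ∃ d : F, d ∉ ({0, 1} : Finset F) := by
        by_contra hcon
        push Not at hcon
        have : Fintype.card F ≤ ({0, 1} : Finset F).card := by
          rw [← Finset.card_univ]
          exact Finset.card_le_card (fun x _ => hcon x)
        have h' : ({0, 1} : Finset F).card ≤ 2 := Finset.card_le_two
        omega
      simp only [Finset.mem_insert, Finset.mem_singleton, not_or] at hd
      obtain ⟨a0, a1⟩ := hd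
      refine ⟨d, a0, sub_ne_zero.2 a1, fun h => a0 (by linear_combination h - hc2), fun h => ?_⟩
      have : (1 : F) = 0 := by linear_combination d * hc4 - h
      exact one_ne_zero this

theorem pair_pow {Q R : M2 F} (h : Qᵀ * R = 1) (k : ℕ) : (Q ^ k)ᵀ * R ^ k = 1 := by
  induction k with
  | zero => simp
  | succ k ih =>
    rw [pow_succ, pow_succ]
    exact pair_mul ih h

theorem lev_pow {Q R : M2 F} (h : Qᵀ * R = 1) (k : ℕ) :
    (lev Q R h) ^ k = lev (Q ^ k) (R ^ k) (pair_pow h k) := by
  induction k with
  | zero =>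
    apply Subtype.ext
    simp [lev]
  | succ k ih =>
    rw [pow_succ, ih, lev_mul]
    exact lev_congr _ _ (pow_succ Q k).symm

theorem comp_pow_form (d : F) (k : ℕ) :
    ∃ a b : F, (comp 1 d) ^ k = !![a, -(b * d); b, a + b] := by
  induction k with
  | zero =>
    refine ⟨1, 0, ?_⟩
    ext i j
    fin_cases i <;> fin_cases j <;> simp
  | succ k ih =>
    obtain ⟨a, b, h⟩ := ih
    refine ⟨-(b * d), a + b, ?_⟩
    rw [pow_succ, h]
    ext i j
    fin_cases i <;> fin_cases j <;> simp [comp, Matrix.mul_apply, Fin.sum_univ_two] <;> ring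

theorem order_x [Fintype F] (p : ℕ) [Fact p.Prime] [CharP F p] {d : F} (hd : Par d) :
    ¬ p ∣ orderOf (xel d hd.h0) := by
  intro hp
  have hfin : orderOf (xel d hd.h0) ≠ 0 := (orderOf_pos _).ne'
  have ho := orderOf_pow_orderOf_div hfin hp
  set k := orderOf (xel d hd.h0) / p with hk
  have h1 : (xel d hd.h0 ^ k) ^ p = 1 := by rw [← ho]; exact pow_orderOf_eq_one _
  have hne : xel d hd.h0 ^ k ≠ 1 := by
    intro h
    rw [h, orderOf_one] at ho
    exact (Fact.out : p.Prime).one_lt.ne ho
  rw [xel, lev_pow] at h1 hne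
  rw [lev_pow] at h1
  obtain ⟨a, b, hab⟩ := comp_pow_form d k
  set Z := (comp 1 d) ^ k with hZ
  have hZp : Z ^ p = 1 := by
    have := congrArg (fun g : Sp4 F => g.1.toBlocks₁₁) h1
    have h11 : ((1 : Sp4 F).1).toBlocks₁₁ = 1 := by
      rw [Submonoid.coe_one, ← fromBlocks_one, toBlocks_fromBlocks₁₁]
    simp only [h11] at this
    simpa [lev] using this
  have hnil : (Z - 1) ^ p = 0 := by
    rw [sub_pow_char_of_commute p (Commute.one_right Z), hZp, one_pow, sub_self]
  have hN : IsNilpotent (Z - 1) := ⟨p, hnil⟩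
  have htr : (Z - 1).trace = 0 := (Matrix.isNilpotent_trace_of_isNilpotent hN).eq_zero
  have hdt : (Z - 1).det = 0 := by
    have : (Z - 1).det ^ p = 0 := by rw [← Matrix.det_pow, hnil, Matrix.det_zero]
    exact pow_eq_zero_iff (Fact.out : p.Prime).ne_zero |>.1 this
  rw [hab] at htr hdt
  simp [Matrix.trace, Fin.sum_univ_two] at htr
  simp [Matrix.det_fin_two] at hdt
  have hb : b = 0 := by
    have : b ^ 2 * (4 * d - 1) = 0 := by
      linear_combination 4 * hdt - (2 * (a - 1) + b) * htr
    rcases mul_eq_zero.1 this with h | h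
    · exact pow_eq_zero_iff (two_ne_zero) |>.1 h
    · exact absurd h hd.h4
  have ha : a = 1 := by
    rw [hb] at hdt
    have : (a - 1) * (a - 1) = 0 := by linear_combination hdt
    have := mul_self_eq_zero.1 this
    linear_combination this
  apply hne
  have hZ1 : Z = 1 := by
    rw [hab, ha, hb]
    ext i j
    fin_cases i <;> fin_cases j <;> simp
  have e : (1 : Sp4 F) = lev 1 1 (by simp) := by
    apply Subtype.ext
    simp [lev]
  rw [e]
  exact lev_congr _ _ hZ1

end Cfsg.Agent.Lib.Helper37.S4
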